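import Cfsg.Agent.H916.RG.Pair
import Cfsg.Agent.H334.Ore.Mat

/-!
# S3509: certificates for pair covers in subgroups of `M24` given by tables (helper916)

* `Stp`, `run` : replacement steps of a pair cover, ending in a pair `(a, a)`, `a ≠ 1`;
* `Crt`, `crtOk` : certificate for an element of an order with two prime divisors;
* `rce_of_data` : `RCe` for the inner automorphisms, from a class cover and certificates.
-/

set_option autoImplicit false
set_option linter.unusedSectionVars false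

namespace Cfsg.Agent.H916.RG.Eng

open Cfsg Subgroup Cfsg.Agent.H106.RC
open Cfsg.Agent.SporadicA.GolayBase Cfsg.Agent.SporadicA.GolayPerm
open Cfsg.Agent.SporadicStructure.M24El Cfsg.Agent.H729.Trans Cfsg.Agent.H729.MData Cfsg.Agent.H729.Count
open Cfsg.Agent.H334.Ore.Mat

/-- powers of a table -/
def pwc (c : ℕ) : ℕ → ℕ
  | 0 => idP
  | k + 1 => pcomp c (pwc c k)

theorem ok_pwc {c : ℕ} (hc : ok c = true) (k : ℕ) : ok (pwc c k) = true := by
  induction k with
  | zero => exact ok_idP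
  | succ k ih => exact ok_pcomp hc ih

theorem el_pwc {c : ℕ} (hc : ok c = true) (k : ℕ) : el (pwc c k) = el c ^ k := by
  induction k with
  | zero => rw [pow_zero]; exact el_idP
  | succ k ih => rw [pow_succ', ← ih]; exact el_pcomp hc (ok_pwc hc k)

/-- A replacement step: side (`true`: second member), element commuting with the other member, its inverse, inverse of
the member which is replaced, exponent. -/
structure Stp where
  s : Bool
  n : ℕ
  n' : ℕ
  i : ℕ
  k : ℕ

/-- the new member -/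
def nw (b : ℕ) (t : Stp) : ℕ := pwc (pcomp t.i (pcomp (pcomp t.n b) t.n')) t.k

/-- check of a step which replaces `b` -/
def okk (F : List ℕ) (a b : ℕ) (t : Stp) : Bool :=
  inG F t.n && (ok t.n' && (ok t.i && (Nat.beq (pcomp t.n t.n') idP && (Nat.beq (pcomp t.i b) idP &&
    Nat.beq (pcomp t.n a) (pcomp a t.n)))))

/-- whether the table is not the identity -/
def nid (a : ℕ) : Bool := (List.range 24).any fun i => !(Nat.beq (papp a i) i)

/-- the check of a list of steps -/
def run (F : List ℕ) : List Stp → ℕ → ℕ → Bool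
  | [], a, b => Nat.beq a b && nid a
  | t :: l, a, b => if t.s then okk F a b t && run F l a (nw b t) else okk F b a t && run F l (nw a t) b

section

variable {G : Type*} [Group G] {φ : G →* M24} (hφ : Function.Injective φ) {F : List ℕ}

theorem el_ne_one {a : ℕ} (ha : ok a = true) (h : nid a = true) : el a ≠ 1 := by
  intro h1
  obtain ⟨i, hi, hi'⟩ := List.any_eq_true.1 h
  have hi24 := List.mem_range.1 hi
  have h2 : papp a i = i := by rw [← im_el ha hi24, h1, im_one hi24]
  rw [h2, Nat.beq_refl] at hi'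
  exact Bool.noConfusion hi'

include hφ in
/-- one step -/
theorem okk_spec (hmem : ∀ c : ℕ, ok c = true → (∀ b ∈ F, papp c b = b) → ∃ x : G, φ x = el c)
    {a b : ℕ} (ha : ok a = true) (hb : ok b = true) {t : Stp} (h : okk F a b t = true) {x y : G} (hx : φ x = el a)
    (hy : φ y = el b) : ok (nw b t) = true ∧ ∃ n : G, n * x = x * n ∧ φ ((y⁻¹ * (n * y * n⁻¹)) ^ t.k) = el (nw b t) := by
  unfold okk at h
  rw [Bool.and_eq_true, Bool.and_eq_true, Bool.and_eq_true, Bool.and_eq_true, Bool.and_eq_true] at h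
  obtain ⟨h1, h2, h3, h4, h5, h6⟩ := h
  obtain ⟨h7, h8⟩ := inG_iff h1
  obtain ⟨n, hn⟩ := hmem _ h7 h8
  have e4 := Nat.eq_of_beq_eq_true h4
  have e5 := Nat.eq_of_beq_eq_true h5
  have e6 := Nat.eq_of_beq_eq_true h6
  have hn' : el t.n' = (φ n)⁻¹ := by
    rw [eq_inv_iff_mul_eq_one, hn]
    have h9 : el t.n * el t.n' = 1 := by rw [← el_pcomp h7 h2, e4, el_idP]
    rw [← mul_left_inj (el t.n'), mul_assoc, h9, mul_one, one_mul]
  have hi' : el t.i = (φ y)⁻¹ := by
    rw [eq_inv_iff_mul_eq_one, hy, ← el_pcomp h3 hb, e5, el_idP]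
  have ok1 : ok (pcomp t.i (pcomp (pcomp t.n b) t.n')) = true := ok_pcomp h3 (ok_pcomp (ok_pcomp h7 hb) h2)
  refine ⟨ok_pwc ok1 _, n, ?_, ?_⟩
  · apply hφ
    rw [map_mul, map_mul, hn, hx, ← el_pcomp h7 ha, ← el_pcomp ha h7, e6]
  · unfold nw
    rw [el_pwc ok1, el_pcomp h3 (ok_pcomp (ok_pcomp h7 hb) h2), el_pcomp (ok_pcomp h7 hb) h2, el_pcomp h7 hb, hi', hn',
      ← hn, ← hy, map_pow, map_mul, map_mul, map_mul, map_inv, map_inv]

include hφ in
/-- **the steps kill the pair** -/
theorem dead_of_run (hN : Nice (⊤ : Subgroup G))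
    (hmem : ∀ c : ℕ, ok c = true → (∀ b ∈ F, papp c b = b) → ∃ x : G, φ x = el c) (l : List Stp) :
    ∀ (a b : ℕ), ok a = true → ok b = true → run F l a b = true → ∀ x y : G, φ x = el a → φ y = el b →
      Dead (⊤ : Subgroup G) x y := by
  induction l with
  | nil =>
    intro a b ha hb h x y hx hy
    unfold run at h
    rw [Bool.and_eq_true] at h
    have e : a = b := Nat.eq_of_beq_eq_true h.1
    have hxy : x = y := hφ (by rw [hx, hy, e])
    subst hxy
    have hx1 : x ≠ 1 := by
      rintro rfl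
      exact el_ne_one ha h.2 (by rw [← hx, map_one])
    intro H hH hP
    exact hN.absurd hH hx1 hP
  | cons t l ih =>
    intro a b ha hb h x y hx hy
    unfold run at h
    by_cases hs : t.s = true
    · rw [if_pos hs, Bool.and_eq_true] at h
      obtain ⟨h1, n, hn, h2⟩ := okk_spec hφ hmem ha hb h.1 hx hy
      exact Dead.step (mem_top n) hn t.k rfl (ih a _ ha h1 h.2 x _ hx h2)
    · rw [if_neg hs, Bool.and_eq_true] at h
      obtain ⟨h1, n, hn, h2⟩ := okk_spec hφ hmem hb ha h.1 hy hx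
      exact (Dead.step (mem_top n) hn t.k rfl (ih _ b h1 hb h.2 _ y h2 hy).symm).symm

/-- Certificate for a class: table, order, two primes, steps. -/
structure Crt where
  c : ℕ
  m : ℕ
  p : ℕ
  q : ℕ
  st : List Stp

/-- the primes -/
def prs : List ℕ := [2, 3, 5, 7, 11, 23]

theorem prime_of_prs {p : ℕ} (hp : p ∈ prs) : p.Prime := by
  unfold prs at hp
  simp only [List.mem_cons, List.not_mem_nil, or_false] at hp
  rcases hp with rfl | rfl | rfl | rfl | rfl | rfl <;> norm_num

/-- check of a certificate -/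
def crtOk (F : List ℕ) (t : Crt) : Bool :=
  prs.contains t.p && (prs.contains t.q && (Nat.beq (t.m % t.p) 0 && (Nat.beq (t.m % t.q) 0 &&
    (Nat.beq ((t.p * t.q) ^ 3 % t.m) 0 && (Nat.blt 0 t.m && (Nat.beq (pwc t.c t.m) idP &&
      (nid (pwc t.c (t.m / t.p)) && (nid (pwc t.c (t.m / t.q)) &&
        run F t.st (pwc t.c (t.m / t.p)) (pwc t.c (t.m / t.q))))))))))

include hφ in
theorem rce_of_crt (hS : IsSimpleGroup G) (hSn : ¬ IsMulCommutative G)
    (hmem : ∀ c : ℕ, ok c = true → (∀ b ∈ F, papp c b = b) → ∃ x : G, φ x = el c) {t : Crt} (hc : ok t.c = true)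
    (h : crtOk F t = true) {x : G} (hx : φ x = el t.c) : RCe G (MulAut.conj x) := by
  unfold crtOk at h
  rw [Bool.and_eq_true, Bool.and_eq_true, Bool.and_eq_true, Bool.and_eq_true, Bool.and_eq_true, Bool.and_eq_true,
    Bool.and_eq_true, Bool.and_eq_true, Bool.and_eq_true] at h
  obtain ⟨h1, h2, h3, h4, h5, h6, h7, h8, h9, h10⟩ := h
  have hp := prime_of_prs (List.contains_iff_mem.1 h1)
  have hq := prime_of_prs (List.contains_iff_mem.1 h2)
  have hpm : t.p ∣ t.m := Nat.dvd_of_mod_eq_zero (Nat.eq_of_beq_eq_true h3)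
  have hqm : t.q ∣ t.m := Nat.dvd_of_mod_eq_zero (Nat.eq_of_beq_eq_true h4)
  have hm5 : t.m ∣ (t.p * t.q) ^ 3 := Nat.dvd_of_mod_eq_zero (Nat.eq_of_beq_eq_true h5)
  have hm0 : 0 < t.m := Nat.blt_eq.mp h6
  have hpr : ∀ r : ℕ, r.Prime → r ∣ t.m → r = t.p ∨ r = t.q := by
    intro r hr hrm
    have h11 := hr.dvd_of_dvd_pow (hrm.trans hm5)
    rcases (Nat.Prime.dvd_mul hr).1 h11 with h12 | h12
    · exact Or.inl ((Nat.prime_dvd_prime_iff_eq hr hp).1 h12)
    · exact Or.inr ((Nat.prime_dvd_prime_iff_eq hr hq).1 h12)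
  have hpw : ∀ k, φ (x ^ k) = el (pwc t.c k) := fun k => by rw [map_pow, hx, el_pwc hc]
  have hord : orderOf x = t.m := by
    refine orderOf_eq_of_pow_and_pow_div_prime hm0 ?_ ?_
    · apply hφ
      rw [hpw, Nat.eq_of_beq_eq_true h7, el_idP, map_one]
    · intro r hr hrm h11
      rcases hpr r hr hrm with rfl | rfl
      · exact el_ne_one (ok_pwc hc _) h8 (by rw [← hpw, h11, map_one])
      · exact el_ne_one (ok_pwc hc _) h9 (by rw [← hpw, h11, map_one])
  exact rce_of_inner hS hSn hord hm0.ne' hpm hqm hpr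
    (dead_of_run hφ (nice_top hS hSn) hmem t.st _ _ (ok_pwc hc _) (ok_pwc hc _) h10 _ _ (hpw _) (hpw _))

/-- prime powers -/
def pps : List (ℕ × ℕ) := [(2, 1), (2, 2), (2, 3), (3, 1), (5, 1), (7, 1), (11, 1), (23, 1)]

/-- the table has prime power order -/
def ppOk (c : ℕ) : Bool := pps.any fun e => Nat.beq (pwc c (e.1 ^ e.2)) idP

include hφ in
theorem rce_of_pp (hS : IsSimpleGroup G) (hSn : ¬ IsMulCommutative G) {c : ℕ} (hc : ok c = true) (h : ppOk c = true)
    {x : G} (hx : φ x = el c) : RCe G (MulAut.conj x) := by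
  obtain ⟨⟨p, k⟩, hpk, h1⟩ := List.any_eq_true.1 h
  have hp : p.Prime := by
    unfold pps at hpk
    simp only [List.mem_cons, List.not_mem_nil, or_false, Prod.mk.injEq] at hpk
    rcases hpk with h | h | h | h | h | h | h | h <;> rw [h.1] <;> norm_num
  have h2 : x ^ (p ^ k) = 1 := by
    apply hφ
    rw [map_pow, hx, ← el_pwc hc, Nat.eq_of_beq_eq_true h1, el_idP, map_one]
  have h3 : orderOf (MulAut.conj x) ∣ p ^ k := by
    rw [orderOf_injective _ (conj_injective hS hSn)]
    exact orderOf_dvd_of_pow_eq_one h2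
  obtain ⟨j, -, hj⟩ := (Nat.dvd_prime_pow hp).1 h3
  exact rce_of_prime_pow hS _ hp hj

/-- the check of a table -/
def chk (F : List ℕ) (T : List Crt) (c : ℕ) : Bool := ok c && (ppOk c || T.any fun t => Nat.beq t.c c && crtOk F t)

include hφ in
/-- **the inner automorphisms** -/
theorem rce_of_data (hS : IsSimpleGroup G) (hSn : ¬ IsMulCommutative G)
    (hmem : ∀ c : ℕ, ok c = true → (∀ b ∈ F, papp c b = b) → ∃ x : G, φ x = el c) (D : List Rec) (T : List Crt)
    (hD : (D.all fun r => chk F T r.c) = true)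
    (hcov : ∀ g : G, g = 1 ∨ ∃ r ∈ D, ∃ x : G, φ x = el r.c ∧ IsConj x g) (g : G) : RCe G (MulAut.conj g) := by
  rcases hcov g with rfl | ⟨r, hr, x, hx, hg⟩
  · refine rce_of_prime_pow hS _ Nat.prime_two (k := 0) ?_
    rw [map_one, orderOf_one, pow_zero]
  · have h := List.all_eq_true.1 hD r hr
    unfold chk at h
    rw [Bool.and_eq_true, Bool.or_eq_true] at h
    have h1 : RCe G (MulAut.conj x) := by
      rcases h.2 with h2 | h2
      · exact rce_of_pp hφ hS hSn h.1 h2 hx
      · obtain ⟨t, -, ht⟩ := List.any_eq_true.1 h2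
        rw [Bool.and_eq_true] at ht
        have e := Nat.eq_of_beq_eq_true ht.1
        exact rce_of_crt hφ hS hSn hmem (by rw [e]; exact h.1) ht.2 (by rw [e]; exact hx)
    obtain ⟨u, hu⟩ := isConj_iff.1 hg
    have h2 := rce_conj (s := u) h1
    rwa [← map_inv, ← map_mul, ← map_mul, hu] at h2

end

end Cfsg.Agent.H916.RG.Eng
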