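import Cfsg.Agent.H916.RG.Eng

/-!
# S3509: certificates for pair covers, automorphism groups embedded in `M24` (helper916)

* `exists_emb` : `MulAut S` in `M24`, for `S ≤ M24` with trivial centraliser, all automorphisms induced by `M24`;
* `rce_of_search` : `RCe` for a class of automorphisms: centralisers of the elements of odd prime order by search.
-/

set_option autoImplicit false
set_option linter.unusedSectionVars false

namespace Cfsg.Agent.H916.RG.Eng

open Cfsg Subgroup Cfsg.Agent.H106.RC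
open Cfsg.Agent.SporadicA.GolayBase Cfsg.Agent.SporadicA.GolayPerm
open Cfsg.Agent.SporadicStructure.M24El Cfsg.Agent.H729.Trans Cfsg.Agent.H729.MData Cfsg.Agent.H729.Count
open Cfsg.Agent.H334.Ore.Mat

/-- the range of `conj` -/
theorem nice_conj {S : Type*} [Group S] (hS : IsSimpleGroup S) (hSn : ¬ IsMulCommutative S) :
    Nice (MulAut.conj : S →* MulAut S).range := by
  have hinj := conj_injective hS hSn
  refine ⟨?_, ?_, ?_⟩
  · constructor
    rintro _ ⟨s, rfl⟩ a
    refine ⟨a s, ?_⟩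
    ext t
    simp [MulAut.conj_apply]
  · have e : S ≃* (MulAut.conj : S →* MulAut S).range := MonoidHom.ofInjective hinj
    have := hS
    exact e.symm.isSimpleGroup
  · intro x hx
    ext s
    have h1 := hx _ ⟨s, rfl⟩
    have h2 : MulAut.conj (x s) = MulAut.conj s := by
      have h3 : x * MulAut.conj s * x⁻¹ = MulAut.conj (x s) := by
        ext t
        simp [MulAut.conj_apply]
      rw [← h3, ← h1, mul_inv_cancel_right]
    exact hinj h2

/-- check of a step which replaces `b` -/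
def okkP (P : ℕ → Bool) (a b : ℕ) (t : Stp) : Bool :=
  P t.n && (ok t.n' && (ok t.i && (Nat.beq (pcomp t.n t.n') idP && (Nat.beq (pcomp t.i b) idP &&
    Nat.beq (pcomp t.n a) (pcomp a t.n)))))

/-- the check of a list of steps -/
def runP (P : ℕ → Bool) : List Stp → ℕ → ℕ → Bool
  | [], a, b => Nat.beq a b && nid a
  | t :: l, a, b => if t.s then okkP P a b t && runP P l a (nw b t) else okkP P b a t && runP P l (nw a t) b

section

variable {G : Type*} [Group G] {φ : G →* M24} (hφ : Function.Injective φ) {P : ℕ → Bool} {N : Subgroup G}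

include hφ in
/-- one step -/
theorem okkP_spec (hmem : ∀ c : ℕ, P c = true → ok c = true ∧ ∃ x ∈ N, φ x = el c)
    {a b : ℕ} (ha : ok a = true) (hb : ok b = true) {t : Stp} (h : okkP P a b t = true) {x y : G} (hx : φ x = el a)
    (hy : φ y = el b) :
    ok (nw b t) = true ∧ ∃ n ∈ N, n * x = x * n ∧ φ ((y⁻¹ * (n * y * n⁻¹)) ^ t.k) = el (nw b t) := by
  unfold okkP at h
  rw [Bool.and_eq_true, Bool.and_eq_true, Bool.and_eq_true, Bool.and_eq_true, Bool.and_eq_true] at h
  obtain ⟨h1, h2, h3, h4, h5, h6⟩ := h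
  obtain ⟨h7, n, hnN, hn⟩ := hmem _ h1
  have e4 := Nat.eq_of_beq_eq_true h4
  have e5 := Nat.eq_of_beq_eq_true h5
  have e6 := Nat.eq_of_beq_eq_true h6
  have hn' : el t.n' = (φ n)⁻¹ := by
    rw [eq_inv_iff_mul_eq_one, hn]
    have h9 : el t.n * el t.n' = 1 := by rw [← el_pcomp h7 h2, e4, el_idP]
    rw [← mul_left_inj (el t.n'), mul_assoc, h9, mul_one, one_mul]
  have hi' : el t.i = (φ y)⁻¹ := by
    rw [eq_inv_iff_mul_eq_one, hy, ← el_pcomp h3 hb, e5, el_idP]
  have ok1 : ok (pcomp t.i (pcomp (pcomp t.n b) t.n')) = true := ok_pcomp h3 (ok_pcomp (ok_pcomp h7 hb) h2)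
  refine ⟨ok_pwc ok1 _, n, hnN, ?_, ?_⟩
  · apply hφ
    rw [map_mul, map_mul, hn, hx, ← el_pcomp h7 ha, ← el_pcomp ha h7, e6]
  · unfold nw
    rw [el_pwc ok1, el_pcomp h3 (ok_pcomp (ok_pcomp h7 hb) h2), el_pcomp (ok_pcomp h7 hb) h2, el_pcomp h7 hb, hi', hn',
      ← hn, ← hy, map_pow, map_mul, map_mul, map_mul, map_inv, map_inv]

include hφ in
/-- **the steps kill the pair** -/
theorem dead_of_runP (hN : Nice N) (hmem : ∀ c : ℕ, P c = true → ok c = true ∧ ∃ x ∈ N, φ x = el c) (l : List Stp) :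
    ∀ (a b : ℕ), ok a = true → ok b = true → runP P l a b = true → ∀ x y : G, φ x = el a → φ y = el b →
      Dead N x y := by
  induction l with
  | nil =>
    intro a b ha hb h x y hx hy
    unfold runP at h
    rw [Bool.and_eq_true] at h
    have e : a = b := Nat.eq_of_beq_eq_true h.1
    have hxy : x = y := hφ (by rw [hx, hy, e])
    subst hxy
    have hx1 : x ≠ 1 := by
      rintro rfl
      exact el_ne_one ha h.2 (by rw [← hx, map_one])
    intro H hH hP
    exact hN.absurd hH hx1 hP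
  | cons t l ih =>
    intro a b ha hb h x y hx hy
    unfold runP at h
    by_cases hs : t.s = true
    · rw [if_pos hs, Bool.and_eq_true] at h
      obtain ⟨h1, n, hnN, hn, h2⟩ := okkP_spec hφ hmem ha hb h.1 hx hy
      exact Dead.step hnN hn t.k rfl (ih a _ ha h1 h.2 x _ hx h2)
    · rw [if_neg hs, Bool.and_eq_true] at h
      obtain ⟨h1, n, hnN, hn, h2⟩ := okkP_spec hφ hmem hb ha h.1 hy hx
      exact (Dead.step hnN hn t.k rfl (ih _ b h1 hb h.2 _ y h2 hy).symm).symm

end

/-- check of a certificate -/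
def crtOkP (P : ℕ → Bool) (t : Crt) : Bool :=
  prs.contains t.p && (prs.contains t.q && (Nat.beq (t.m % t.p) 0 && (Nat.beq (t.m % t.q) 0 &&
    (Nat.beq ((t.p * t.q) ^ 3 % t.m) 0 && (Nat.blt 0 t.m && (Nat.beq (pwc t.c t.m) idP &&
      (nid (pwc t.c (t.m / t.p)) && (nid (pwc t.c (t.m / t.q)) &&
        runP P t.st (pwc t.c (t.m / t.p)) (pwc t.c (t.m / t.q))))))))))

/-- the check of a table -/
def chkP' (P : ℕ → Bool) (T : List Crt) (c : ℕ) : Bool := ppOk c || T.any fun t => Nat.beq t.c c && crtOkP P t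

/-- Data for a class of elements of odd prime order: order, table, search data. -/
structure Odd where
  p : ℕ
  c : ℕ
  wd : List (ℕ × ℕ)
  sts : List (ℕ × List ℕ × List (List (ℕ × ℕ)))

/-- the check of a class: all elements of the coset commuting with the table have a certificate -/
def chkO (P Q : ℕ → Bool) (cand : ℕ → List ℕ) (T : List Crt) (o : Odd) : Bool :=
  pre o.p o.c o.wd o.sts && ((o.sts.all fun st => decide (st.2.1 = cand st.1)) &&
    ((tl o.p o.c o.c o.wd o.sts).all fun z => !(Q z) || chkP' P T z))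

section

variable {S : Type*} [Group S] [Finite S] {φ : MulAut S →* M24} (hφ : Function.Injective φ) {P : ℕ → Bool}

include hφ in
theorem rce_of_chkP' (hS : IsSimpleGroup S) (hSn : ¬ IsMulCommutative S)
    (hmem : ∀ c : ℕ, P c = true → ok c = true ∧ ∃ s : S, φ (MulAut.conj s) = el c) {T : List Crt} {z : ℕ}
    (hz : ok z = true) (h : chkP' P T z = true) {α : MulAut S} (hα : φ α = el z) : RCe S α := by
  have hmem' : ∀ c : ℕ, P c = true → ok c = true ∧ ∃ x ∈ (MulAut.conj : S →* MulAut S).range, φ x = el c := by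
    intro c hc
    obtain ⟨h1, s, h2⟩ := hmem c hc
    exact ⟨h1, _, ⟨s, rfl⟩, h2⟩
  have hpw : ∀ k, φ (α ^ k) = el (pwc z k) := fun k => by rw [map_pow, hα, el_pwc hz]
  unfold chkP' at h
  rw [Bool.or_eq_true] at h
  rcases h with h | h
  · obtain ⟨⟨p, k⟩, hpk, h1⟩ := List.any_eq_true.1 h
    have hp : p.Prime := by
      unfold pps at hpk
      simp only [List.mem_cons, List.not_mem_nil, or_false, Prod.mk.injEq] at hpk
      rcases hpk with h | h | h | h | h | h | h | h <;> rw [h.1] <;> norm_num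
    have h2 : α ^ (p ^ k) = 1 := by
      apply hφ
      rw [hpw, Nat.eq_of_beq_eq_true h1, el_idP, map_one]
    obtain ⟨j, -, hj⟩ := (Nat.dvd_prime_pow hp).1 (orderOf_dvd_of_pow_eq_one h2)
    exact rce_of_prime_pow hS _ hp hj
  · obtain ⟨t, -, ht⟩ := List.any_eq_true.1 h
    rw [Bool.and_eq_true] at ht
    obtain ⟨ht1, ht⟩ := ht
    have e := Nat.eq_of_beq_eq_true ht1
    subst e
    unfold crtOkP at ht
    rw [Bool.and_eq_true, Bool.and_eq_true, Bool.and_eq_true, Bool.and_eq_true, Bool.and_eq_true, Bool.and_eq_true,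
      Bool.and_eq_true, Bool.and_eq_true, Bool.and_eq_true] at ht
    obtain ⟨h1, h2, h3, h4, h5, h6, h7, h8, h9, h10⟩ := ht
    have hp := prime_of_prs (List.contains_iff_mem.1 h1)
    have hq := prime_of_prs (List.contains_iff_mem.1 h2)
    have hpm : t.p ∣ t.m := Nat.dvd_of_mod_eq_zero (Nat.eq_of_beq_eq_true h3)
    have hqm : t.q ∣ t.m := Nat.dvd_of_mod_eq_zero (Nat.eq_of_beq_eq_true h4)
    have hm5 : t.m ∣ (t.p * t.q) ^ 3 := Nat.dvd_of_mod_eq_zero (Nat.eq_of_beq_eq_true h5)
    have hm0 : 0 < t.m := Nat.blt_eq.mp h6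
    have hpr : ∀ r : ℕ, r.Prime → r ∣ t.m → r = t.p ∨ r = t.q := by
      intro r hr hrm
      have h11 := hr.dvd_of_dvd_pow (hrm.trans hm5)
      rcases (Nat.Prime.dvd_mul hr).1 h11 with h12 | h12
      · exact Or.inl ((Nat.prime_dvd_prime_iff_eq hr hp).1 h12)
      · exact Or.inr ((Nat.prime_dvd_prime_iff_eq hr hq).1 h12)
    have hord : orderOf α = t.m := by
      refine orderOf_eq_of_pow_and_pow_div_prime hm0 ?_ ?_
      · apply hφ
        rw [hpw, Nat.eq_of_beq_eq_true h7, el_idP, map_one]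
      · intro r hr hrm h11
        rcases hpr r hr hrm with rfl | rfl
        · exact el_ne_one (ok_pwc hz _) h8 (by rw [← hpw, h11, map_one])
        · exact el_ne_one (ok_pwc hz _) h9 (by rw [← hpw, h11, map_one])
    exact rce_of_dead hord hm0.ne' hpm hqm hpr
      (dead_of_runP hφ (nice_conj hS hSn) hmem' t.st _ _ (ok_pwc hz _) (ok_pwc hz _) h10 _ _ (hpw _) (hpw _))

include hφ in
/-- **search** -/
theorem rce_of_search (hS : IsSimpleGroup S) (hSn : ¬ IsMulCommutative S)
    (hmem : ∀ c : ℕ, P c = true → ok c = true ∧ ∃ s : S, φ (MulAut.conj s) = el c)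
    (X : MulAut S → Prop) (hXc : ∀ (α : MulAut S) (t : S), X α → X (MulAut.conj t * α * (MulAut.conj t)⁻¹))
    {Q : ℕ → Bool} {cand : ℕ → List ℕ}
    (hXQ : ∀ α : MulAut S, X α → Q (packOf (φ α : Equiv.Perm GolayPt)) = true ∧ ∀ i < 24, im (φ α) i ∈ cand i)
    (hX2 : ∀ α : MulAut S, X α → α ^ 2 ∈ (MulAut.conj : S →* MulAut S).range)
    {O : List Odd} {T : List Crt}
    (hcov : ∀ (s : S) (p : ℕ), p.Prime → p ≠ 2 → orderOf s = p →
      ∃ o ∈ O, ∃ (t : S) (k : ℕ), φ (MulAut.conj (t * s ^ k * t⁻¹)) = el o.c)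
    (hO : (O.all (chkO P Q cand T)) = true) {α : MulAut S} (hα : X α) : RCe S α := by
  classical
  have hfin : Finite (MulAut S) :=
    Finite.of_injective (fun α => (α : S → S)) fun a b h => MulEquiv.ext fun x => congrFun h x
  by_cases hpp : ∀ p : ℕ, p.Prime → p ∣ orderOf α → p = 2
  · obtain ⟨k, hk⟩ : ∃ k, orderOf α = 2 ^ k := by
      refine ⟨_, Nat.eq_prime_pow_of_unique_prime_dvd (orderOf_pos α).ne' fun {d} hd hd' => hpp d hd hd'⟩
    exact rce_of_prime_pow hS _ Nat.prime_two hk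
  push Not at hpp
  obtain ⟨p, hp, hpm, hp2⟩ := hpp
  obtain ⟨l, hl⟩ := hpm
  have hl0 : l ≠ 0 := by
    rintro rfl
    rw [mul_zero] at hl
    exact (orderOf_pos α).ne' hl
  have hox : orderOf (α ^ l) = p := by
    rw [orderOf_pow_of_dvd hl0 ⟨p, by rw [hl, mul_comm]⟩, hl, Nat.mul_div_cancel _ (Nat.pos_of_ne_zero hl0)]
  have hxr : α ^ l ∈ (MulAut.conj : S →* MulAut S).range := by
    have hodd : _root_.Odd p := hp.odd_of_ne_two hp2
    obtain ⟨j, hj⟩ := hodd
    have h1 : (α ^ 2) ^ (l * (j + 1)) = α ^ l := by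
      have h2 : α ^ (l * p) = 1 := by rw [mul_comm, ← hl, pow_orderOf_eq_one]
      rw [← pow_mul, show 2 * (l * (j + 1)) = l * p + l by rw [hj]; ring, pow_add, h2, one_mul]
    rw [← h1]
    exact Subgroup.pow_mem _ (hX2 α hα) _
  obtain ⟨s, hs⟩ := hxr
  have hos : orderOf s = p := by
    rw [← orderOf_injective _ (conj_injective hS hSn) s, hs, hox]
  obtain ⟨o, hoO, t, k, hk⟩ := hcov s p hp hp2 hos
  have ho := List.all_eq_true.1 hO o hoO
  unfold chkO at ho
  rw [Bool.and_eq_true, Bool.and_eq_true] at ho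
  obtain ⟨h1, h2, h3⟩ := ho
  set β : MulAut S := MulAut.conj t * α * (MulAut.conj t)⁻¹ with hβ
  have hβX : X β := hXc α t hα
  have hcomm : β * MulAut.conj (t * s ^ k * t⁻¹) = MulAut.conj (t * s ^ k * t⁻¹) * β := by
    rw [map_mul, map_mul, map_inv, map_pow, hs, hβ]
    have e : α * (α ^ l) ^ k = (α ^ l) ^ k * α := ((Commute.refl α).pow_right l |>.pow_right k).eq
    calc MulAut.conj t * α * (MulAut.conj t)⁻¹ * (MulAut.conj t * (α ^ l) ^ k * (MulAut.conj t)⁻¹)
        = MulAut.conj t * (α * (α ^ l) ^ k) * (MulAut.conj t)⁻¹ := by group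
      _ = MulAut.conj t * ((α ^ l) ^ k * α) * (MulAut.conj t)⁻¹ := by rw [e]
      _ = _ := by group
  have hcomm' : φ β * el o.c = el o.c * φ β := by rw [← hk, ← map_mul, ← map_mul, hcomm]
  obtain ⟨h4, h5⟩ := hXQ β hβX
  have hmemtl := packOf_mem_tl h1 (ok_of_pre h1) (φ β) hcomm' (by
    intro st hst
    have h6 := List.all_eq_true.1 h2 st hst
    rw [decide_eq_true_iff] at h6
    rw [h6]
    by_cases h24 : st.1 < 24
    · exact h5 _ h24
    · exfalso
      unfold pre at h1
      rw [Bool.and_eq_true, Bool.and_eq_true] at h1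
      have key : ∀ (sts : List (ℕ × List ℕ × List (List (ℕ × ℕ)))) (bs : List ℕ), srcOk o.p o.c sts bs = true →
          ∀ st ∈ sts, st.1 < 24 := by
        intro sts
        induction sts with
        | nil => intro _ _ st hst; exact absurd hst List.not_mem_nil
        | cons a l ih =>
          intro bs hbs st hst
          unfold srcOk at hbs
          rw [Bool.and_eq_true, Bool.and_eq_true, Bool.and_eq_true] at hbs
          rcases List.mem_cons.1 hst with rfl | hst
          · exact Nat.blt_eq.mp hbs.1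
          · exact ih _ hbs.2.2.2 st hst
      exact h24 (key _ _ h1.2.1 st hst))
  have h6 := List.all_eq_true.1 h3 _ hmemtl
  rw [Bool.or_eq_true, Bool.not_eq_true', h4] at h6
  have h7 : RCe S β := by
    rcases h6 with h6 | h6
    · exact Bool.noConfusion h6
    · exact rce_of_chkP' hφ hS hSn hmem (ok_packOf _) h6 (el_packOf _).symm
  have h8 := rce_conj (s := t⁻¹) h7
  have e : MulAut.conj t⁻¹ * β * (MulAut.conj t⁻¹)⁻¹ = α := by
    rw [hβ, map_inv]
    group
  rwa [e] at h8

end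

/-! ### the automorphism group of a subgroup of `M24` -/

/-- **`MulAut S` in `M24`** -/
theorem exists_emb (S : Subgroup (Equiv.Perm GolayPt)) (hS : S ≤ M24)
    (hex : ∀ α : MulAut S, ∃ τ : M24, ∀ g : S, ((α g : S) : Equiv.Perm GolayPt) = τ * g * (τ : Equiv.Perm GolayPt)⁻¹)
    (hcen : ∀ τ : M24, (∀ g : S, (τ : Equiv.Perm GolayPt) * g = g * τ) → τ = 1) :
    ∃ φ : MulAut S →* M24, Function.Injective φ ∧ (∀ s : S, (φ (MulAut.conj s) : Equiv.Perm GolayPt) = s) ∧
      ∀ (α : MulAut S) (g : S), ((α g : S) : Equiv.Perm GolayPt) = φ α * g * (φ α : Equiv.Perm GolayPt)⁻¹ := by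
  choose f hf using hex
  have huniq : ∀ (α : MulAut S) (τ : M24),
      (∀ g : S, ((α g : S) : Equiv.Perm GolayPt) = τ * g * (τ : Equiv.Perm GolayPt)⁻¹) → f α = τ := by
    intro α τ h
    have h1 : τ⁻¹ * f α = 1 := by
      apply hcen
      intro g
      have h2 : (f α : Equiv.Perm GolayPt) * g * (f α : Equiv.Perm GolayPt)⁻¹ =
          τ * g * (τ : Equiv.Perm GolayPt)⁻¹ := by rw [← hf, ← h]
      have h3 : (f α : Equiv.Perm GolayPt) * g = τ * g * (τ : Equiv.Perm GolayPt)⁻¹ * f α := by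
        rw [← h2, inv_mul_cancel_right]
      rw [Subgroup.coe_mul, Subgroup.coe_inv, mul_assoc, h3]
      group
    exact (inv_mul_eq_one.1 h1).symm
  have hmul : ∀ α β : MulAut S, f (α * β) = f α * f β := by
    intro α β
    apply huniq
    intro g
    rw [MulAut.mul_apply, hf, hf, Subgroup.coe_mul, mul_inv_rev]
    simp only [mul_assoc]
  refine ⟨MonoidHom.mk' f hmul, ?_, ?_, ?_⟩
  · intro α β h
    ext g
    have h1 : f α = f β := h
    have h2 : ((α g : S) : Equiv.Perm GolayPt) = (β g : S) := by rw [hf, hf, h1]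
    rw [h2]
  · intro s
    have h1 : f (MulAut.conj s) = ⟨s, hS s.2⟩ := by
      apply huniq
      intro g
      rfl
    change ((f (MulAut.conj s) : M24) : Equiv.Perm GolayPt) = s
    rw [h1]
  · exact hf

end Cfsg.Agent.H916.RG.Eng
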