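import Cfsg.Agent.H916.RG.Use
import Cfsg.Agent.H916.RG.D22
import Cfsg.Agent.H334.Ore.M22
import Cfsg.Agent.KFacts.MM.OutAut

/-!
# S3509: `M22` (helper916)
-/

set_option autoImplicit false

namespace Cfsg.Agent.H916.RG.R22

open Cfsg Cfsg.Agent.H106.RC Cfsg.Agent.H334.Ore Cfsg.Agent.H334.Ore.Mat Cfsg.Agent.H916.RG.Eng
open Cfsg.Agent.SporadicStructure.M24El Cfsg.Agent.H729.Trans
open Cfsg.Agent.SporadicA.GolayPerm Cfsg.Agent.SporadicA.GolayBase
open Cfsg.Agent.KFacts.MM.OutAut (emb emb_inj emb_conj of_emb_mem ind_mem)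
open Cfsg.Agent.J4Type.Aut22 (D22 mem_D22_iff mem_M22_iff_D22)

/-- the class of the record `r5` -/
def t5 : Crt where
  c := 974265648109078940214804430252913312
  m := 6
  p := 2
  q := 3
  st := [⟨true, 971797536695641304457252446696350752, 979586328606383424427148734998170656, 984650585973394783790417478971181728, 2⟩]

/-- the certificates -/
def T : List Crt := [t5]


theorem hD : (M22Data.D.all fun r => chk M22Data.F T r.c) = true := by decide +kernel

/-- inner automorphisms -/
theorem rce_inner (hs : IsSimpleGroup Spor.M22) (hc : ¬ IsMulCommutative Spor.M22) (g : Spor.M22) :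
    RCe Spor.M22 (MulAut.conj g) :=
  rce_of_data Cfsg.Agent.H729.M22Deg.inc_injective hs hc M22.hmem M22Data.D T hD M22.cov g

theorem emb_M24 (α : MulAut Spor.M22) : emb α ∈ M24 := ((mem_D22_iff _).1 (ind_mem α)).1

/-- the embedding -/
noncomputable def φ : MulAut Spor.M22 →* M24 := emb.codRestrict M24 emb_M24

theorem φ_inj : Function.Injective φ := by
  intro α β h
  exact emb_inj (congrArg Subtype.val h)

theorem φ_conj (s : Spor.M22) : φ (MulAut.conj s) = Cfsg.Agent.H729.M22Deg.inc s :=
  Subtype.ext (emb_conj s)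

/-- tables of elements of `M22` -/
def P (c : ℕ) : Bool := ok c && (Nat.beq (papp c 23) 23 && Nat.beq (papp c 0) 0)

theorem hP (c : ℕ) (h : P c = true) : ok c = true ∧ ∃ s : Spor.M22, φ (MulAut.conj s) = el c := by
  unfold P at h
  rw [Bool.and_eq_true, Bool.and_eq_true] at h
  obtain ⟨h1, h2, h3⟩ := h
  refine ⟨h1, ?_⟩
  obtain ⟨s, hs⟩ := M22.hmem c h1 (by
    intro b hb
    simp only [M22Data.F, List.mem_cons, List.not_mem_nil, or_false] at hb
    rcases hb with rfl | rfl
    · exact Nat.eq_of_beq_eq_true h2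
    · exact Nat.eq_of_beq_eq_true h3)
  exact ⟨s, by rw [φ_conj, hs]⟩

/-- candidates -/
def cand (b : ℕ) : List ℕ := if b = 23 then [0] else if b = 0 then [23] else List.range 24

/-- no restriction -/
def Q (_ : ℕ) : Bool := true

theorem im_outer {α : MulAut Spor.M22} (h : emb α ∉ Spor.M22) : im (φ α) 23 = 0 ∧ im (φ α) 0 = 23 := by
  have h1 := ((mem_D22_iff _).1 (ind_mem α)).2
  have h2 : ¬ (emb α) none = none := fun h3 => h ((mem_M22_iff_D22 _).2 ⟨ind_mem α, h3⟩)
  rcases h1 with h1 | h1
  · exact absurd h1.1 h2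
  · have e23 : pt 23 = none := by decide
    have e0 : pt 0 = some 0 := by decide
    constructor
    · show idx ((emb α) (pt 23)) = 0
      rw [e23]
      have h3 : (emb α) none = some 0 := h1.1
      rw [h3]
      decide
    · show idx ((emb α) (pt 0)) = 23
      rw [e0]
      have h3 : (emb α) (some 0) = none := h1.2
      rw [h3]
      decide

theorem hO : (D22.O.all (chkO P Q cand D22.T)) = true := by decide +kernel

theorem hodd : (M22Data.D.all fun r => ([3, 5, 7, 11].all fun q => nid (pwc r.c q)) || D22.O.any fun o => Nat.beq o.c r.c) = true := by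
  decide +kernel

/-- outer automorphisms -/
theorem rce_outer (hs : IsSimpleGroup Spor.M22) (hc : ¬ IsMulCommutative Spor.M22) (hcard : Nat.card Spor.M22 = 443520)
    {α : MulAut Spor.M22} (hα : emb α ∉ Spor.M22) : RCe Spor.M22 α := by
  have hfin : Finite Spor.M22 := Nat.finite_of_card_ne_zero (by rw [hcard]; norm_num)
  refine rce_of_search φ_inj hs hc hP (fun α => emb α ∉ Spor.M22) ?_ ?_ ?_ ?_ hO hα
  · intro α t h h1
    apply h
    rw [map_mul, map_mul, map_inv, emb_conj] at h1
    have h2 := Spor.M22.mul_mem (Spor.M22.mul_mem (Spor.M22.inv_mem t.2) h1) t.2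
    have e : (t : Equiv.Perm GolayPt)⁻¹ * (t * emb α * (t : Equiv.Perm GolayPt)⁻¹) * t = emb α := by group
    rwa [e] at h2
  · intro α h
    refine ⟨rfl, fun i hi => ?_⟩
    obtain ⟨h1, h2⟩ := im_outer h
    unfold cand
    by_cases h23 : i = 23
    · rw [if_pos h23, h23, h1]
      exact List.mem_singleton.2 rfl
    · rw [if_neg h23]
      by_cases h0 : i = 0
      · rw [if_pos h0, h0, h2]
        exact List.mem_singleton.2 rfl
      · rw [if_neg h0]
        exact List.mem_range.2 (im_lt _ _)
  · intro α h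
    have h1 : emb (α ^ 2) ∈ Spor.M22 := by
      rw [mem_M22_iff_D22]
      refine ⟨ind_mem _, ?_⟩
      have h1 := ((mem_D22_iff _).1 (ind_mem α)).2
      rw [pow_two, map_mul, Equiv.Perm.mul_apply]
      rcases h1 with h1 | h1
      · have h2 : (emb α) none = none := h1.1
        rw [h2, h2]
      · have h2 : (emb α) none = some 0 := h1.1
        have h3 : (emb α) (some 0) = none := h1.2
        rw [h2, h3]
    rw [of_emb_mem h1]
    exact ⟨_, rfl⟩
  · intro s p hp hp2 hsp
    have hpc : p ∈ [3, 5, 7, 11] := by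
      have h1 : p ∣ 443520 := by
        rw [← hcard, ← hsp]
        exact orderOf_dvd_natCard s
      have h2 : p ∈ (443520 : ℕ).primeFactors := Nat.mem_primeFactors.2 ⟨hp, h1, by norm_num⟩
      have h3 : (443520 : ℕ).primeFactors = {2, 3, 5, 7, 11} := by
        rw [show (443520 : ℕ) = 2 ^ 7 * 3 ^ 2 * 5 * 7 * 11 by norm_num]
        rw [Nat.primeFactors_mul (by norm_num) (by norm_num), Nat.primeFactors_mul (by norm_num) (by norm_num),
          Nat.primeFactors_mul (by norm_num) (by norm_num), Nat.primeFactors_mul (by norm_num) (by norm_num),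
          Nat.primeFactors_pow _ (by norm_num), Nat.primeFactors_pow _ (by norm_num),
          Nat.Prime.primeFactors Nat.prime_two, Nat.Prime.primeFactors Nat.prime_three,
          Nat.Prime.primeFactors (by norm_num), Nat.Prime.primeFactors (by norm_num),
          Nat.Prime.primeFactors (by norm_num)]
        rfl
      rw [h3] at h2
      simp only [Finset.mem_insert, Finset.mem_singleton] at h2
      simp only [List.mem_cons, List.not_mem_nil, or_false]
      rcases h2 with h | h | h | h | h
      · exact absurd h hp2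
      · exact Or.inl h
      · exact Or.inr (Or.inl h)
      · exact Or.inr (Or.inr (Or.inl h))
      · exact Or.inr (Or.inr (Or.inr h))
    rcases M22.cov s with rfl | ⟨r, hr, x, hx, hxs⟩
    · rw [orderOf_one] at hsp
      exact absurd hsp.symm hp.one_lt.ne'
    · have h1 := List.all_eq_true.1 hodd r hr
      rw [Bool.or_eq_true] at h1
      have hok : ok r.c = true := by
        have h2 := List.all_eq_true.1 hD r hr
        unfold chk at h2
        rw [Bool.and_eq_true] at h2
        exact h2.1
      obtain ⟨u, hu⟩ := isConj_iff.1 hxs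
      have hxp : x ^ p = 1 := by
        have h3 : s ^ p = 1 := by rw [← hsp, pow_orderOf_eq_one]
        rw [← hu, conj_pow] at h3
        have h4 : u⁻¹ * (u * x ^ p * u⁻¹) * u = x ^ p := by group
        rw [← h4, h3]
        group
      rcases h1 with h1 | h1
      · exfalso
        refine el_ne_one (ok_pwc hok p) (List.all_eq_true.1 h1 p hpc) ?_
        rw [el_pwc hok, ← hx, ← map_pow, hxp, map_one]
      · obtain ⟨o, ho, ho'⟩ := List.any_eq_true.1 h1
        refine ⟨o, ho, u⁻¹, 1, ?_⟩
        have e : u⁻¹ * s ^ 1 * u⁻¹⁻¹ = x := by rw [← hu]; group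
        rw [e, φ_conj, hx, Nat.eq_of_beq_eq_true ho']

/-- **the row `M22`** -/
theorem rc_m22 {S : Type} [Group S] (hs : IsSimpleGroup S) (hc : ¬ IsMulCommutative S) (h : Spor.IsoM22 S) : RC S := by
  obtain ⟨e⟩ := h
  refine RC.congr e.symm fun α => ?_
  by_cases hα : emb α ∈ Spor.M22
  · rw [of_emb_mem hα]
    exact rce_inner (simple_cgr e hs) (nc_cgr e hc) _
  · exact rce_outer (simple_cgr e hs) (nc_cgr e hc) Cfsg.Agent.H729.M22Deg.card_M22 hα

end Cfsg.Agent.H916.RG.R22
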