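import Cfsg.Agent.H916.RG.EngOut

/-!
# S3509: elements of odd prime order by Sylow's theorem, for subgroups of `M24` given by tables (helper916)
-/

set_option autoImplicit false
set_option linter.unusedSectionVars false

namespace Cfsg.Agent.H916.RG.Eng

open Cfsg Subgroup Cfsg.Agent.H106.RC
open Cfsg.Agent.SporadicA.GolayBase Cfsg.Agent.SporadicA.GolayPerm
open Cfsg.Agent.SporadicStructure.M24El Cfsg.Agent.H729.Trans Cfsg.Agent.H729.MData Cfsg.Agent.H729.Count
open Cfsg.Agent.H334.Ore.Mat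

/-- different tables -/
def dif (z w : ℕ) : Bool := (List.range 24).any fun i => !(Nat.beq (papp z i) (papp w i))

theorem el_ne_of_dif {z w : ℕ} (hz : ok z = true) (hw : ok w = true) (h : dif z w = true) : el z ≠ el w := by
  intro he
  obtain ⟨i, hi, hi'⟩ := List.any_eq_true.1 h
  have hi24 := List.mem_range.1 hi
  have h2 : papp z i = papp w i := by rw [← im_el hz hi24, he, im_el hw hi24]
  rw [h2, Nat.beq_refl] at hi'
  exact Bool.noConfusion hi'

/-- a list of tables is a group -/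
def sylOk (P : ℕ → Bool) (L : List ℕ) : Bool :=
  L.contains idP && (L.all P && ((L.all fun z => L.all fun w => L.contains (pcomp z w)) &&
    ((L.all fun z => L.all fun w => Nat.beq z w || dif z w) && decide L.Nodup)))

theorem exists_conj_list {S : Type*} [Group S] [Finite S] {ψ : S →* M24} (hψ : Function.Injective ψ) {P : ℕ → Bool}
    (hP : ∀ c, P c = true → ok c = true ∧ ∃ s : S, ψ s = el c) {p a m : ℕ} (hp : p.Prime) {L : List ℕ}
    (hL : sylOk P L = true) (hlen : L.length = p ^ a) (hcard : Nat.card S = p ^ a * m) (hm : ¬ p ∣ m) (s : S)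
    (hs : orderOf s = p) : ∃ z ∈ L, ∃ g : S, ψ (g * s * g⁻¹) = el z := by
  classical
  have : Fact p.Prime := ⟨hp⟩
  unfold sylOk at hL
  rw [Bool.and_eq_true, Bool.and_eq_true, Bool.and_eq_true, Bool.and_eq_true, decide_eq_true_iff] at hL
  obtain ⟨h1, h2, h3, h4, h5⟩ := hL
  have h1' : idP ∈ L := List.contains_iff_mem.1 h1
  have hok : ∀ z ∈ L, ok z = true := fun z hz => (hP z (List.all_eq_true.1 h2 z hz)).1
  have hmul : ∀ z ∈ L, ∀ w ∈ L, pcomp z w ∈ L := fun z hz w hw =>
    List.contains_iff_mem.1 (List.all_eq_true.1 (List.all_eq_true.1 h3 z hz) w hw)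
  let M : Submonoid S :=
    { carrier := {g | ∃ z ∈ L, ψ g = el z}
      one_mem' := ⟨idP, h1', by rw [map_one, el_idP]⟩
      mul_mem' := by
        rintro g h ⟨z, hz, hg⟩ ⟨w, hw, hh⟩
        exact ⟨_, hmul z hz w hw, by rw [map_mul, hg, hh, el_pcomp (hok z hz) (hok w hw)]⟩ }
  have hinv : ∀ g ∈ M, g⁻¹ ∈ M := by
    intro g hg
    have h6 : g⁻¹ = g ^ (orderOf g - 1) := by
      rw [inv_eq_iff_mul_eq_one, ← pow_succ', Nat.sub_add_cancel (orderOf_pos g), pow_orderOf_eq_one]
    rw [h6]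
    exact M.pow_mem hg _
  let K : Subgroup S := { M with inv_mem' := fun {g} hg => hinv g hg }
  have hKm : ∀ g : S, g ∈ K ↔ ∃ z ∈ L, ψ g = el z := fun g => Iff.rfl
  have hKcard : Nat.card K = p ^ a := by
    have hex : ∀ z : {z // z ∈ L}, ∃ g : K, ψ g = el z := by
      rintro ⟨z, hz⟩
      obtain ⟨-, g, hg⟩ := hP z (List.all_eq_true.1 h2 z hz)
      exact ⟨⟨g, (hKm g).2 ⟨z, hz, hg⟩⟩, hg⟩
    choose f hf using hex
    have hinj : Function.Injective f := by
      intro z w h
      have h6 : el (z : ℕ) = el (w : ℕ) := by rw [← hf z, ← hf w, h]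
      have h7 := List.all_eq_true.1 (List.all_eq_true.1 h4 z z.2) w w.2
      rw [Bool.or_eq_true] at h7
      rcases h7 with h7 | h7
      · exact Subtype.ext (Nat.eq_of_beq_eq_true h7)
      · exact absurd h6 (el_ne_of_dif (hok _ z.2) (hok _ w.2) h7)
    have hsurj : Function.Surjective f := by
      rintro ⟨g, hg⟩
      obtain ⟨z, hz, hz'⟩ := (hKm g).1 hg
      refine ⟨⟨z, hz⟩, Subtype.ext (hψ ?_)⟩
      rw [hf, hz']
    rw [← Nat.card_congr (Equiv.ofBijective f ⟨hinj, hsurj⟩), ← hlen]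
    have e : Nat.card {z // z ∈ L} = Nat.card {z // z ∈ L.toFinset} :=
      Nat.card_congr (Equiv.subtypeEquivRight fun z => List.mem_toFinset.symm)
    rw [e, Nat.card_eq_fintype_card, Fintype.card_coe, List.toFinset_card_of_nodup h5]
  have hKp : IsPGroup p K := IsPGroup.of_card hKcard
  have hKi : ¬ p ∣ K.index := by
    have h6 := K.card_mul_index
    rw [hKcard, hcard] at h6
    rw [Nat.eq_of_mul_eq_mul_left (pow_pos hp.pos a) h6]
    exact hm
  let T : Sylow p S := hKp.toSylow hKi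
  have hsp : IsPGroup p (zpowers s) := by
    refine IsPGroup.of_card (n := 1) ?_
    rw [Nat.card_zpowers, hs, pow_one]
  obtain ⟨R, hR⟩ := hsp.exists_le_sylow
  obtain ⟨g, hg⟩ := MulAction.exists_smul_eq S R T
  have h6 : g * s * g⁻¹ ∈ T := by
    rw [← hg]
    exact Subgroup.smul_mem_pointwise_smul s (MulAut.conj g) R.1 (hR (mem_zpowers s))
  obtain ⟨z, hz, hz'⟩ := (hKm _).1 (show g * s * g⁻¹ ∈ K from h6)
  exact ⟨z, hz, g, hz'⟩

/-- Data for an element of the Sylow subgroup: table, conjugating table and its inverse, exponent. -/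
structure Cnj where
  z : ℕ
  u : ℕ
  u' : ℕ
  k : ℕ

/-- the elements of the Sylow subgroup are conjugate to powers of the representatives -/
def covOk (P : ℕ → Bool) (O : List Odd) (L : List ℕ) (W : List Cnj) : Bool :=
  L.all fun z => Nat.beq z idP || W.any fun w => Nat.beq w.z z && (P w.u && (ok w.u' && (Nat.beq (pcomp w.u w.u') idP &&
    O.any fun o => Nat.beq (pcomp (pcomp w.u (pwc z w.k)) w.u') o.c)))

theorem cov_of_sylow {S : Type*} [Group S] [Finite S] {ψ : S →* M24} (hψ : Function.Injective ψ) {P : ℕ → Bool}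
    (hP : ∀ c, P c = true → ok c = true ∧ ∃ s : S, ψ s = el c) {p a m : ℕ} (hp : p.Prime) {L : List ℕ}
    (hL : sylOk P L = true) (hlen : L.length = p ^ a) (hcard : Nat.card S = p ^ a * m) (hm : ¬ p ∣ m)
    {O : List Odd} {W : List Cnj} (hW : covOk P O L W = true) (s : S)
    (hs : orderOf s = p) : ∃ o ∈ O, ∃ (t : S) (k : ℕ), ψ (t * s ^ k * t⁻¹) = el o.c := by
  obtain ⟨z, hz, g, hg⟩ := exists_conj_list hψ hP hp hL hlen hcard hm s hs
  have hL' := hL
  unfold sylOk at hL'
  rw [Bool.and_eq_true, Bool.and_eq_true] at hL'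
  have hokz : ok z = true := (hP z (List.all_eq_true.1 hL'.2.1 z hz)).1
  have h1 := List.all_eq_true.1 hW z hz
  rw [Bool.or_eq_true] at h1
  rcases h1 with h1 | h1
  · exfalso
    rw [Nat.eq_of_beq_eq_true h1, el_idP] at hg
    have h2 : g * s * g⁻¹ = 1 := hψ (by rw [hg, map_one])
    have h3 : s = 1 := by
      have h4 : g⁻¹ * (g * s * g⁻¹) * g = s := by group
      rw [← h4, h2]
      group
    rw [h3, orderOf_one] at hs
    exact hp.one_lt.ne hs
  · obtain ⟨w, -, hw⟩ := List.any_eq_true.1 h1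
    rw [Bool.and_eq_true, Bool.and_eq_true, Bool.and_eq_true, Bool.and_eq_true] at hw
    obtain ⟨-, h3, h4, h5, h6⟩ := hw
    obtain ⟨o, ho, ho'⟩ := List.any_eq_true.1 h6
    obtain ⟨h7, u, hu⟩ := hP _ h3
    have hu' : el w.u' = (ψ u)⁻¹ := by
      rw [eq_inv_iff_mul_eq_one, hu]
      have h9 : el w.u * el w.u' = 1 := by rw [← el_pcomp h7 h4, Nat.eq_of_beq_eq_true h5, el_idP]
      rw [← mul_left_inj (el w.u'), mul_assoc, h9, mul_one, one_mul]
    refine ⟨o, ho, u * g, w.k, ?_⟩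
    have e : u * g * s ^ w.k * (u * g)⁻¹ = u * (g * s * g⁻¹) ^ w.k * u⁻¹ := by
      rw [conj_pow]; group
    rw [e, map_mul, map_mul, map_inv, map_pow, hg, ← el_pwc hokz, ← Nat.eq_of_beq_eq_true ho',
      el_pcomp (ok_pcomp h7 (ok_pwc hokz _)) h4, el_pcomp h7 (ok_pwc hokz _), hu', hu]

/-- the centraliser in `M24` is trivial -/
theorem cen_of_search {p c : ℕ} {wd : List (ℕ × ℕ)} {sts : List (ℕ × List ℕ × List (List (ℕ × ℕ)))} {d : ℕ}
    (h : pre p c wd sts = true) (hd : ok d = true) (hst : (sts.all fun st => decide (st.2.1 = List.range 24)) = true)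
    (hl : ((tl p c c wd sts).all fun z => Nat.beq z idP || dif (pcomp z d) (pcomp d z)) = true) (τ : M24)
    (h1 : τ * el c = el c * τ) (h2 : τ * el d = el d * τ) : τ = 1 := by
  have h3 := packOf_mem_tl h (ok_of_pre h) τ h1 (by
    intro st hst'
    have h4 := List.all_eq_true.1 hst st hst'
    rw [decide_eq_true_iff] at h4
    rw [h4]
    exact List.mem_range.2 (im_lt _ _))
  have h4 := List.all_eq_true.1 hl _ h3
  rw [Bool.or_eq_true] at h4
  rcases h4 with h4 | h4
  · rw [← el_packOf τ, Nat.eq_of_beq_eq_true h4, el_idP]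
  · exfalso
    have hz := ok_packOf τ
    apply el_ne_of_dif (ok_pcomp hz hd) (ok_pcomp hd hz) h4
    rw [el_pcomp hz hd, el_pcomp hd hz, el_packOf, h2]

end Cfsg.Agent.H916.RG.Eng
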