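import Cfsg.Agent.H916.RG.Eng
import Cfsg.Prelude.Def_Spor_Mathieu
import Cfsg.Prelude.Def_KGroupFacts

/-!
# S3509: rows with all automorphisms inner (helper916)
-/

set_option autoImplicit false

namespace Cfsg.Agent.H916.RG

open Cfsg Subgroup Cfsg.Agent.H106.RC

theorem inner_of_out {G : Type*} [Group G] (h : Nat.card (Cfsg.Out G) = 1) (x : MulAut G) :
    ∃ g : G, MulAut.conj g = x := by
  have h1 : Cfsg.Inn G = ⊤ := Subgroup.index_eq_one.mp h
  have h2 : x ∈ Cfsg.Inn G := by rw [h1]; trivial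
  exact h2

theorem rc_of_inner {G : Type*} [Group G] (h : Nat.card (Cfsg.Out G) = 1) (h' : ∀ g : G, RCe G (MulAut.conj g)) :
    RC G := by
  intro x
  obtain ⟨g, rfl⟩ := inner_of_out h x
  exact h' g

theorem simple_cgr {S T : Type*} [Group S] [Group T] (e : S ≃* T) (hs : IsSimpleGroup S) : IsSimpleGroup T := by
  have := hs
  exact e.symm.isSimpleGroup

theorem nc_cgr {S T : Type*} [Group S] [Group T] (e : S ≃* T) (hc : ¬ IsMulCommutative S) : ¬ IsMulCommutative T := by
  intro h
  apply hc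
  refine ⟨⟨fun x y => e.injective ?_⟩⟩
  rw [map_mul, map_mul]
  exact h.is_comm.comm _ _

end Cfsg.Agent.H916.RG
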